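import Mathlib

/-! The affine group `AS = 3³ : SL₃(3)` of the matrices `[[1, r], [0, g]]` (plans/L43R.md) -/

set_option autoImplicit false

namespace CfsgLib.L43R

open Matrix

abbrev SL3 : Type := SpecialLinearGroup (Fin 3) (ZMod 3)

/-- the matrix `[[1, r], [0, g]]` -/
@[ext] structure AS where
  r : Fin 3 → ZMod 3
  g : SL3

namespace AS

instance : DecidableEq AS := fun a b => decidable_of_iff (a.r = b.r ∧ a.g.1 = b.g.1)
  ⟨fun h => AS.ext h.1 (Subtype.ext h.2), fun h => h ▸ ⟨rfl, rfl⟩⟩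

instance : Mul AS := ⟨fun a b => ⟨a.r ᵥ* b.g.1 + b.r, a.g * b.g⟩⟩
instance : One AS := ⟨⟨0, 1⟩⟩
instance : Inv AS := ⟨fun a => ⟨-(a.r ᵥ* (a.g⁻¹).1), a.g⁻¹⟩⟩

theorem mul_r (a b : AS) : (a * b).r = a.r ᵥ* b.g.1 + b.r := rfl
theorem mul_g (a b : AS) : (a * b).g = a.g * b.g := rfl
theorem one_r : (1 : AS).r = 0 := rfl
theorem one_g : (1 : AS).g = 1 := rfl
theorem inv_r (a : AS) : a⁻¹.r = -(a.r ᵥ* (a.g⁻¹).1) := rfl
theorem inv_g (a : AS) : a⁻¹.g = a.g⁻¹ := rfl

instance : Group AS := Group.ofLeftAxioms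
  (fun a b c => AS.ext (by
    simp only [mul_r, mul_g, add_vecMul, vecMul_vecMul, add_assoc]; rfl) (mul_assoc _ _ _))
  (fun a => AS.ext (by simp only [mul_r, one_r, zero_vecMul, zero_add]) (one_mul _))
  (fun a => AS.ext (by
    rw [mul_r, inv_r, neg_vecMul, vecMul_vecMul, show (a.g⁻¹).1 * a.g.1 = 1 from congrArg Subtype.val
      (inv_mul_cancel a.g), vecMul_one, neg_add_cancel, one_r]) (inv_mul_cancel _))

/-- as a set, `AS` is a product -/
def equivProd : AS ≃ (Fin 3 → ZMod 3) × SL3 := ⟨fun a => (a.r, a.g), fun p => ⟨p.1, p.2⟩, fun _ => rfl, fun _ => rfl⟩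

instance : Finite AS := Finite.of_equiv _ equivProd.symm

/-- the linear part -/
def lin : AS →* SL3 := MonoidHom.mk' (fun a => a.g) fun _ _ => rfl

/-- the universal property -/
def lift {G : Type*} [Group G] (ev : Multiplicative (Fin 3 → ZMod 3) →* G) (l : SL3 →* G)
    (h : ∀ g r, (l g)⁻¹ * ev (Multiplicative.ofAdd r) * l g = ev (Multiplicative.ofAdd (r ᵥ* g.1))) : AS →* G :=
  MonoidHom.mk' (fun a => l a.g * ev (Multiplicative.ofAdd a.r)) fun a b => by
    simp only [mul_r, mul_g, map_mul, ofAdd_add, ← h]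
    group

theorem lift_apply {G : Type*} [Group G] (ev : Multiplicative (Fin 3 → ZMod 3) →* G) (l : SL3 →* G) (h) (a : AS) :
    lift ev l h a = l a.g * ev (Multiplicative.ofAdd a.r) := rfl

/-- `1 + E₀₃` -/
def z1 : AS := ⟨![0, 0, 1], 1⟩

/-- interchanges the last two coordinates -/
def n0 : AS := ⟨0, ⟨!![1, 0, 0; 0, 0, 1; 0, -1, 0], by decide +kernel⟩⟩

end AS

end CfsgLib.L43R
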