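import Cfsg.Agent.Lib.L43R.Mod
import Cfsg.Agent.Lib.L43R.AS

/-! BR: the model `NZ` inside `AS` (plans/L43R.md) -/

set_option autoImplicit false
set_option maxRecDepth 100000
set_option maxHeartbeats 400000

namespace CfsgLib.L43R

open Subgroup CfsgLib.W2 CfsgLib.CosetEnum

namespace BRP

noncomputable section

/-- a ternary digit -/
def dg (k m : ℕ) : ZMod 3 := ((Nat.mod (Nat.div k m) 3 : ℕ) : ZMod 3)

/-- the entries of a matrix -/
def en (s : GL3) (i : ℕ) : ZMod 3 := ((tab2 2 3 5 0x8aa9aa9a1698a528a65999615a8691aa2688a294952144692668992465255855166158691645a9566a59546124a1689a064a91a426198a6094951541 s.v i : ℕ) : ZMod 3)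

def fq : Q5 →* AS := TG.homOf genQ (fun q => ⟨![dg q.v 27, dg q.v 3, dg q.v 1],
  ⟨!![1, 0, dg q.v 9; 0, 1, dg q.v 81; 0, 0, 1], by simp [Matrix.det_fin_three]⟩⟩) (by decide +kernel) (by decide +kernel)

def fl : GL3 →* AS := TG.homOf genG (fun s => ⟨0, ⟨!![en s 0, en s 1, 0; en s 2, en s 3, 0; 0, 0, en s 4],
  (Matrix.det_fin_three _).trans (by revert s; decide +kernel)⟩⟩) (by decide +kernel) (by decide +kernel)

theorem fl_fq (s : GL3) : ∀ q, fl s * fq q = fq (act s q) * fl s := by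
  refine TG.ind_of_genB genG (P := fun s => ∀ q, fl s * fq q = fq (act s q) * fl s)
    (fun q => by rw [act_one, map_one, one_mul, mul_one]) (fun s ih g hg q => ?_) s
  rw [map_mul, mul_assoc, (by decide +kernel : ∀ g ∈ ([TG.o 1, TG.o 12, TG.o 6] : List GL3), ∀ q,
    fl g * fq q = fq (act g q) * fl g) g hg, ← mul_assoc, ih, mul_act, mul_assoc]

theorem qp_mul (a b : NZ) : qp (a * b) = qp a * act (pr a) (qp b) :=
  (injective_iff_map_eq_one qv).2 (by decide +kernel) (mul_right_cancel (b := lv (pr (a * b))) (by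
    rw [qv_lv, map_mul, map_mul, map_mul, mul_assoc, ← mul_assoc (qv (act _ _)), ← lv_qv, ← mul_assoc, ← mul_assoc,
      qv_lv, mul_assoc, qv_lv]))

def Phi : NZ →* AS := MonoidHom.mk' (fun a => fq (qp a) * fl (pr a)) fun a b => by
  rw [qp_mul, map_mul, map_mul, map_mul, mul_assoc, ← mul_assoc (fq (act _ _)), ← fl_fq, mul_assoc, mul_assoc]

theorem Phi_inj : Function.Injective Phi := (injective_iff_map_eq_one _).2 fun a h => by
  obtain ⟨h1, h2⟩ := (by decide +kernel : ∀ q s, fq q = fl s → q = 1 ∧ s = 1) (qp a) (pr a)⁻¹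
    ((eq_inv_of_mul_eq_one_left h).trans (map_inv _ _).symm)
  rw [← qv_lv a, h1, inv_eq_one.1 h2, map_one, map_one, mul_one]

end

end BRP

theorem exists_Phi : ∃ Φ : NZ →* AS, Function.Injective Φ ∧ Φ gz = AS.z1 ∧ AS.n0 * Φ gz * AS.n0⁻¹ = Φ ga ∧
    AS.n0 * Φ ga * AS.n0⁻¹ = (Φ gz)⁻¹ ∧ AS.n0 * Φ gy * AS.n0⁻¹ = Φ gp ∧ AS.n0 * Φ gp * AS.n0⁻¹ = (Φ gy)⁻¹ ∧
    AS.n0 * Φ gh * AS.n0⁻¹ = Φ gt := by
  refine ⟨BRP.Phi, BRP.Phi_inj, ?_⟩
  simp only [mul_inv_eq_iff_eq_mul, ← map_inv]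
  decide +kernel

theorem LH.of_AS {G : Type*} [Group G] [Finite G] (κ : AS →* G) (hκ : Function.Injective κ)
    (hc : Nat.card (Cx (κ AS.z1)) ≤ 5832) : ∃ ι : NZ →* G, LH ι (κ AS.n0) ∧ ι.range ≤ κ.range := by
  obtain ⟨Φ, h0, hz, h1, h2, h3, h4, h5⟩ := exists_Phi
  have hi : Function.Injective (κ.comp Φ) := hκ.comp h0
  have k : ∀ {a b}, AS.n0 * Φ a * AS.n0⁻¹ = b → κ AS.n0 * κ.comp Φ a * (κ AS.n0)⁻¹ = κ b := fun e => by
    rw [← e, map_mul, map_mul, map_inv]; rfl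
  refine ⟨κ.comp Φ, ⟨hi, fun n hn => ?_, k h1, (k h2).trans (map_inv _ _), k h3, (k h4).trans (map_inv _ _), k h5⟩,
    by rintro _ ⟨a, rfl⟩; exact ⟨_, rfl⟩⟩
  rw [← hz] at hc
  change Nat.card (Cx (κ.comp Φ gz)) ≤ _ at hc
  generalize κ.comp Φ = ι at *
  have c1 : Cx (ι gz) ≤ ι.range := (eq_of_le_of_card_ge (H := CN.map ι) (by
    rintro _ ⟨a, ha, rfl⟩
    rw [mem_Cx, ← map_mul, ← map_mul, mem_CN.1 ha])
    (by rwa [card_map_of_injective hi, cards.2.2.1])).ge.trans (map_le_range _ _)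
  obtain ⟨j, hj⟩ := mem_zpowers_iff.1 ((mem_normalizer_iff.1 hn _).1 (mem_zpowers _))
  rw [zpow_eq_zpow_emod' j (n := 3) (by rw [← map_pow, show gz ^ 3 = 1 by decide +kernel, map_one])] at hj
  obtain e | e | e : j % (3 : ℕ) = 0 ∨ j % (3 : ℕ) = 1 ∨ j % (3 : ℕ) = 2 := by omega
  · rw [e, zpow_zero, eq_comm, conj_eq_one_iff, map_eq_one_iff _ hi] at hj
    exact absurd hj (by decide +kernel)
  · rw [e, zpow_one] at hj
    exact c1 (mem_Cx.2 (eq_mul_of_mul_inv_eq hj.symm))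
  · rw [e, zpow_two, ← map_mul, show gz * gz = gh * gz * gh⁻¹ by decide +kernel, map_mul, map_mul, map_inv] at hj
    refine (mul_mem_cancel_left (inv_mem (MonoidHom.mem_range.2 ⟨gh, rfl⟩))).1 (c1 (mem_Cx.2 ?_))
    rw [mul_assoc, eq_mul_of_mul_inv_eq hj.symm]
    group

end CfsgLib.L43R
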