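import Cfsg.Agent.Lib.L43R.Mod

/-! Classes of elements of `J` in the model (plans/L43R.md) -/

set_option autoImplicit false
set_option maxRecDepth 100000

namespace CfsgLib.L43R

open Subgroup CfsgLib.W2 CfsgLib.CosetEnum

noncomputable section

/-- the quadratic form `a y - z p` on `J` -/
def qf (j : NZ) : ℕ := (j.v / 3 % 3 * (j.v / 9 % 3) + 2 * (j.v % 3) * (j.v / 243)) % 3

/-- the representative of the class of `j ∈ J`, `j ≠ 1` -/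
def rep (j : NZ) : NZ := if qf j = 1 then xp else if qf j = 2 then xm else if j.v < 9 then gz else gy

/-- `x` and an element `s` of `C_S(x)` outside `J` -/
def XS (x s : NZ) : Prop := (x = xp ∧ s = gb * gc) ∨ (x = xm ∧ s = gb * gc⁻¹)

theorem rep_model : ∀ k < 729, o k ∈ JN → o k = 1 ∨
    ∃ b ∈ [1, gb, gb⁻¹, gc, gc⁻¹], ∃ c ∈ [1, gb, gb⁻¹, gc, gc⁻¹], ∃ d ∈ [1, gt, gh, gt * gh],
      d * c * (b * o k * b⁻¹) * (d * c)⁻¹ = rep (o k) ∨ d * c * th (b * o k * b⁻¹) * (d * c)⁻¹ = rep (o k) := by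
  decide +kernel

theorem conj_JN : ∀ b ∈ [gb, gc, gt, gh], ∀ k < 729, o k ∈ JN → b * o k * b⁻¹ ∈ JN := by decide +kernel

theorem th_JN : ∀ k < 729, o k ∈ JN → th (o k) ∈ JN := by decide +kernel

theorem vals : gz ^ 3 = 1 ∧ gz ≠ 1 ∧ gt * gt = 1 ∧ gt ≠ 1 ∧ gh * gh = 1 ∧ gh * gt = gt * gh ∧ gh ≠ gt ∧
    gh * gz * gh⁻¹ = gz⁻¹ ∧ gh * gp * gh⁻¹ = gp⁻¹ ∧ gt * xp * gt⁻¹ = xp⁻¹ ∧ gt * xm * gt⁻¹ = xm⁻¹ ∧
    gt * gy * gt⁻¹ = gy⁻¹ ∧ gt * ga * gt⁻¹ = ga⁻¹ ∧ th xp = up ∧ th xm = um ∧ gi * gi = gt ∧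
    up = gp * gz⁻¹ ∧ um = (gp * gz)⁻¹ ∧ xp = ga * gy ∧ xm = ga * gy⁻¹ := by decide +kernel

end

end CfsgLib.L43R
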