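import Cfsg.Agent.Lib.L43R.Tab
import Cfsg.Agent.Lib.W2.Tools

/-! The model `NZ = 3^(1+4) : GL₂(3)`. The number `c + 3 r₂ + 9 s₁ + 27 r₁ + 81 s₂ + 243 γ` stands for
`U · diag (1, γ, det γ)`, where `U = 1 + r₁ E₀₁ + r₂ E₀₂ + c E₀₃ + s₁ E₁₃ + s₂ E₂₃`. -/

set_option autoImplicit false
set_option maxRecDepth 100000

namespace CfsgLib.L43R

open Subgroup CfsgLib.W2 CfsgLib.CosetEnum

noncomputable section

/-- fast bounded loops -/
instance (priority := high) decBall (n : ℕ) (P : ℕ → Prop) [DecidablePred P] : Decidable (∀ k < n, P k) :=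
  decidable_of_bool (allN (fun k => decide (P k)) n) (by simp only [allN_iff, decide_eq_true_eq])

instance (priority := high) decBex (n : ℕ) (P : ℕ → Prop) [DecidablePred P] : Decidable (∃ k < n, P k) :=
  decidable_of_bool (anyN (fun k => decide (P k)) n) (by simp only [anyN_iff, decide_eq_true_eq])

instance (priority := high) decBallL (l : List NZ) (P : NZ → Prop) [DecidablePred P] : Decidable (∀ g ∈ l, P g) :=
  List.decidableBAll P l

instance (priority := high) decBexL (l : List NZ) (P : NZ → Prop) [DecidablePred P] : Decidable (∃ g ∈ l, P g) :=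
  List.decidableBEx P l

instance (x g : NZ) : Decidable (g ∈ Cx x) := decidable_of_iff _ mem_Cx.symm

/-- the element with a given number -/
abbrev o (k : ℕ) : NZ := TG.o k

/-- statements about the elements with small numbers -/
theorem all_lt {n : ℕ} {P : NZ → Prop} (h : ∀ k < n, P (o k)) {a : NZ} (ha : a.v < n) : P a :=
  TG.o_v a ▸ h _ ha

theorem v_mul' (a b : NZ) : (a * b).v = mQ (a.v % 243) (aG (a.v / 243) (b.v % 243)) + 243 * mG (a.v / 243) (b.v / 243) :=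
  congrFun (congrFun mN_eq a.v) b.v

theorem div_lt (a : NZ) : a.v / 243 < 48 := by have := a.v_lt; omega

/-- the linear part -/
def pr : NZ →* GL3 := MonoidHom.mk' (fun a => TG.o (Nat.div a.v 243)) fun a b => TG.ext' (by
  have h1 := v_act (TG.o (a.v / 243)) (TG.o (b.v % 243))
  rw [TG.v_o (div_lt a), TG.v_o (Nat.mod_lt _ (by norm_num))] at h1
  have h2 := tokQ.lt _ (Nat.mod_lt a.v (by norm_num)) _ (h1 ▸ TG.v_lt _)
  have h3 : (a * b).v / 243 = mG (a.v / 243) (b.v / 243) := by rw [v_mul']; omega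
  show (TG.o ((a * b).v / 243) : GL3).v = mG (TG.o (a.v / 243) : GL3).v (TG.o (b.v / 243) : GL3).v
  rw [TG.v_o (div_lt _), TG.v_o (div_lt _), TG.v_o (div_lt _), h3])

theorem v_pr (a : NZ) : (pr a).v = a.v / 243 := TG.v_o (div_lt a)

/-- the Levi complement -/
def lv : GL3 →* NZ := MonoidHom.mk' (fun s => o (Nat.mul 243 s.v)) (by decide +kernel)

/-- the unipotent radical -/
def qv : Q5 →* NZ := TG.homOf genQ (fun q => o q.v) (by decide +kernel) (by decide +kernel)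

/-- the unipotent part -/
def qp (a : NZ) : Q5 := TG.o (Nat.mod a.v 243)

theorem qv_lv : ∀ a : NZ, qv (qp a) * lv (pr a) = a := by decide +kernel

theorem lv_qv : ∀ s q, lv s * qv q = qv (act s q) * lv s := by decide +kernel

theorem pr_lv : ∀ s, pr (lv s) = s := by decide +kernel

theorem pr_qv : ∀ q, pr (qv q) = 1 := by decide +kernel

/-- `1 + E₀₃` -/
def gz : NZ := o 1
/-- `1 + E₀₂` -/
def ga : NZ := o 3
/-- `1 + E₁₃` -/
def gy : NZ := o 9
/-- `1 + E₀₁` -/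
def gb : NZ := o 27
/-- `1 + E₂₃` -/
def gc : NZ := o 81
/-- `1 + E₁₂` -/
def gp : NZ := o 243
/-- `diag (1, -1, -1, 1)` -/
def gt : NZ := o 729
/-- `diag (1, -1, 1, -1)` -/
def gh : NZ := o 1458
/-- of order four, `gi * gi = gt`; `gh` interchanges `gi` and `gj` -/
def gi : NZ := o 3402
def gj : NZ := o 3645
/-- `ga * gy` -/
def xp : NZ := o 12
/-- `ga * gy⁻¹` -/
def xm : NZ := o 21
/-- `gp * gz⁻¹` -/
def up : NZ := o 245
/-- `(gp * gz)⁻¹` -/
def um : NZ := o 488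

/-- the preimage of a set of matrices -/
def gsub (M : ℕ) (h : bit M (1 : GL3).v = true ∧ ∀ a : GL3, bit M a.v = true → ∀ b : GL3,
    bit M b.v = true → bit M (a * b⁻¹).v = true) : Subgroup NZ :=
  (TG.sub (fun s : GL3 => bit M s.v = true) h).comap pr

instance (M : ℕ) (h) (a : NZ) : Decidable (a ∈ gsub M h) := inferInstanceAs (Decidable (bit M (pr a).v = true))

/-- a subgroup of elements with small numbers -/
def bsub (n : ℕ) (P : ℕ → Bool) (h : P 0 = true ∧ 0 < n ∧ ∀ a < n, P a = true → ∀ b < n, P b = true →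
    (o a * (o b)⁻¹).v < n ∧ P (o a * (o b)⁻¹).v = true) : Subgroup NZ :=
  TG.sub (fun a : NZ => a.v < n ∧ P a.v = true) ⟨⟨h.2.1, h.1⟩, fun a ha b hb => by
    have := h.2.2 _ ha.1 ha.2 _ hb.1 hb.2
    rwa [o, o, TG.o_v, TG.o_v] at this⟩

instance (n : ℕ) (P : ℕ → Bool) (h) (a : NZ) : Decidable (a ∈ bsub n P h) :=
  inferInstanceAs (Decidable (a.v < n ∧ P a.v = true))

/-- `Q = 3^(1+4)`, the numbers below 243 -/
abbrev QN : Subgroup NZ := gsub 0x1 (by decide +kernel)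
/-- the Sylow `3`-subgroup, the numbers below 729 -/
abbrev SN : Subgroup NZ := gsub 0x7 (by decide +kernel)
/-- the Borel subgroup, the numbers below 2916 -/
abbrev BN : Subgroup NZ := gsub 0xfff (by decide +kernel)
/-- `C(z) = Q : SL₂(3)` -/
abbrev CN : Subgroup NZ := gsub 0x3ffff03f (by decide +kernel)
/-- `J = ⟨gz, ga, gy, gp⟩` -/
abbrev JN : Subgroup NZ := bsub 729 (fun a => Nat.blt (Nat.mod a 243) 27) (by decide +kernel)
/-- `⟨gz, ga⟩` -/
abbrev YN : Subgroup NZ := bsub 9 (fun _ => true) (by decide +kernel)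
/-- `P = ⟨gz, gp⟩ = C_J(gt)` -/
abbrev PN : Subgroup NZ := bsub 729 (fun a => Nat.blt (Nat.mod a 243) 3) (by decide +kernel)
/-- `⟨gz, gp, gt⟩` -/
abbrev PT : Subgroup NZ := bsub 1458 (fun a => Nat.blt (Nat.mod a 243) 3) (by decide +kernel)
/-- `⟨gi, gj⟩ ≅ Q₈` -/
abbrev RN : Subgroup NZ := bsub 4374 (fun a => Nat.beq (Nat.mod a 243) 0 && bit 0x3f009 (Nat.div a 243))
  (by decide +kernel)
/-- a Sylow `2`-subgroup -/
abbrev TN : Subgroup NZ := bsub 11664 (fun a => Nat.beq (Nat.mod a 243) 0 && bit 0x61824003f249 (Nat.div a 243))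
  (by decide +kernel)

theorem mem_QN {a : NZ} : a ∈ QN ↔ a.v < 243 := by revert a; decide +kernel

theorem mem_SN {a : NZ} : a ∈ SN ↔ a.v < 729 := by revert a; decide +kernel

theorem mem_BN {a : NZ} : a ∈ BN ↔ a.v < 2916 := by revert a; decide +kernel

theorem mem_CN {a : NZ} : a ∈ CN ↔ a * gz = gz * a := by revert a; decide +kernel

theorem cards : Nat.card QN = 243 ∧ Nat.card SN = 729 ∧ Nat.card CN = 5832 ∧ Nat.card JN = 81 ∧ Nat.card YN = 9 ∧
    Nat.card PN = 9 ∧ Nat.card PT = 18 ∧ Nat.card RN = 8 ∧ Nat.card TN = 16 := by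
  refine ⟨?_, ?_, ?_, ?_, ?_, ?_, ?_, ?_, ?_⟩ <;> (rw [TG.card_subgroup _ _ fun _ => Iff.rfl]; decide +kernel)

theorem card_NZ : Nat.card NZ = 11664 := TG.card_eq

/-- the action of the element `n` on `J` -/
def th (a : NZ) : NZ := ga ^ (a.v % 3) * gz⁻¹ ^ (a.v / 3 % 3) * gp ^ (a.v / 9 % 3) * gy⁻¹ ^ (a.v / 243)

theorem J_eq : ∀ k < 729, o k ∈ JN → o k = gz ^ (k % 3) * ga ^ (k / 3 % 3) * gy ^ (k / 9 % 3) * gp ^ (k / 243) := by
  decide +kernel

end

variable {G : Type*} [Group G]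

/-- `ι` identifies `NZ` with `N⟨z⟩`; `n` normalises `J` -/
structure LH (ι : NZ →* G) (n : G) : Prop where
  inj : Function.Injective ι
  nz : normalizer (zpowers (ι gz) : Set G) ≤ ι.range
  n1 : n * ι gz * n⁻¹ = ι ga
  n2 : n * ι ga * n⁻¹ = (ι gz)⁻¹
  n3 : n * ι gy * n⁻¹ = ι gp
  n4 : n * ι gp * n⁻¹ = (ι gy)⁻¹
  n5 : n * ι gh * n⁻¹ = ι gt

theorem LH.nJ {ι : NZ →* G} {n : G} (h : LH ι n) {a : NZ} (ha : a ∈ JN) : n * ι a * n⁻¹ = ι (th a) := by
  have e := J_eq _ ha.1 (by rwa [o, TG.o_v])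
  rw [o, TG.o_v] at e
  rw [th]
  nth_rw 1 [e]
  simp only [map_mul, map_pow, map_inv, ← h.n1, ← h.n2, ← h.n3, ← h.n4, conj_pow, conj_mul]

end CfsgLib.L43R
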