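import Cfsg.Agent.Lib.L43R.AS
import Cfsg.Agent.Lib.Classical.SLBasic
import Cfsg.Agent.Lib.Classical.SLCard
import Cfsg.Prelude.Def_Solvable
import Cfsg.Prelude.Def_CaseTheorems
import Cfsg.Prelude.Def_Transfer

/-! PC: `AS` is a maximal parabolic subgroup of `PSL₄(3)` (plans/L43R.md) -/

set_option autoImplicit false
set_option maxRecDepth 100000
set_option maxHeartbeats 400000

namespace CfsgLib.L43R

open Subgroup Matrix
open scoped LinearAlgebra.Projectivization

namespace PCP

abbrev SL4 : Type := SpecialLinearGroup (Fin 4) (ZMod 3)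

/-- the matrix `[[1, r], [0, g]]` -/
def mat (r : Fin 3 → ZMod 3) (g : Matrix (Fin 3) (Fin 3) (ZMod 3)) : Matrix (Fin 4) (Fin 4) (ZMod 3) :=
  Matrix.of (Fin.cons (Fin.cons 1 r) fun i => Fin.cons 0 (g i))

theorem det_mat (r g) : (mat r g).det = g.det := by
  rw [det_succ_column_zero, Fin.sum_univ_succ, Finset.sum_eq_zero fun i _ => by simp [mat]]
  simp only [mat, Fin.succAbove_zero, of_apply, Fin.cons_zero, Fin.val_zero, pow_zero, one_mul, add_zero]
  rfl

def emb : AS →* SL4 := MonoidHom.mk' (fun a => ⟨mat a.r a.g.1, (det_mat _ _).trans a.g.2⟩) fun a b =>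
  Subtype.ext (by
    ext i j
    change mat (a.r ᵥ* b.g.1 + b.r) (a.g.1 * b.g.1) i j = (mat a.r a.g.1 * mat b.r b.g.1) i j
    rw [mul_apply, Fin.sum_univ_succ]
    refine Fin.cases ?_ (fun i => ?_) i <;> refine Fin.cases ?_ (fun j => ?_) j <;>
      simp [mat, mul_apply, vecMul, dotProduct, add_comm])

def psi : AS →* ProjectiveSpecialLinearGroup (Fin 4) (ZMod 3) := (QuotientGroup.mk' _).comp emb

theorem psi_inj : Function.Injective psi := (injective_iff_map_eq_one _).2 fun a h => by
  obtain ⟨c, -, e⟩ := Matrix.SpecialLinearGroup.mem_center_iff.1 ((QuotientGroup.eq_one_iff (emb a)).1 h)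
  have k : ∀ i j, scalar (Fin 4) c i j = mat a.r a.g.1 i j := fun i j => congrFun (congrFun e i) j
  obtain rfl : c = 1 := by simpa [mat] using k 0 0
  refine AS.ext (funext fun j => ?_) (Subtype.ext (Matrix.ext fun i j => ?_))
  · simpa [mat, one_apply, (Fin.succ_ne_zero j).symm, AS.one_r] using (k 0 j.succ).symm
  · simpa [mat, one_apply, AS.one_g, diagonal_apply] using! (k i.succ j.succ).symm

theorem e0_ne : (Pi.single 0 1 : Fin 4 → ZMod 3) ≠ 0 := by decide

theorem mem_emb (m : SL4) (h : (Pi.single 0 1 : Fin 4 → ZMod 3) = m.1 *ᵥ Pi.single 0 1) : m ∈ emb.range := by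
  have e : mat (fun j => m.1 0 j.succ) (m.1.submatrix Fin.succ Fin.succ) = m.1 := by
    ext i j
    have := congrFun h i
    revert this
    refine Fin.cases ?_ (fun i => ?_) i <;> refine Fin.cases ?_ (fun j => ?_) j <;> simp +contextual [mat]
  exact ⟨⟨_, ⟨_, (det_mat _ _).symm.trans ((congrArg det e).trans m.2)⟩⟩, Subtype.ext e⟩

theorem range_psi : psi.range = MulAction.stabilizer _ (Projectivization.mk (ZMod 3) _ e0_ne) := by
  ext x
  induction x using QuotientGroup.induction_on with | _ m => ?_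
  rw [MulAction.mem_stabilizer_iff, ProjectiveSpecialLinearGroup.smul_proj_mk, Projectivization.smul_mk,
    Projectivization.mk_eq_mk_iff']
  constructor
  · rintro ⟨a, h⟩
    obtain ⟨c, -, e⟩ := Matrix.SpecialLinearGroup.mem_center_iff.1 ((QuotientGroup.eq (a := emb a)).1 h)
    refine ⟨c, ?_⟩
    rw [← mul_inv_cancel_left (emb a) m]
    change _ = (mat a.r a.g.1 * ((emb a)⁻¹ * m).1) *ᵥ _
    rw [← e]
    ext i
    refine Fin.cases ?_ (fun i => ?_) i <;> simp [mat, mulVec, dotProduct, Pi.single_apply]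
  · rintro ⟨c, h⟩
    change _ = m.1 *ᵥ _ at h
    have : Fact (Even (Fintype.card (Fin 4))) := ⟨by decide⟩
    obtain rfl | rfl | rfl : c = 0 ∨ c = 1 ∨ c = -1 := by clear h; revert c; decide
    · exact absurd (h.symm.trans (zero_smul _ _)) ((smul_ne_zero_iff_ne m).2 e0_ne)
    · obtain ⟨a, e⟩ := mem_emb m (by rw [← h, one_smul])
      exact ⟨a, congrArg _ e⟩
    · obtain ⟨a, e⟩ := mem_emb (-m) (by rw [Matrix.SpecialLinearGroup.coe_neg, neg_mulVec, ← h, neg_smul, neg_neg, one_smul])
      refine ⟨a, (congrArg _ e).trans (QuotientGroup.eq.2 (mem_center_iff.2 fun g => ?_))⟩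
      simp

theorem simple : IsSimpleGroup SL3 := by
  have := Classical.psl_fin_isSimpleGroup (F := ZMod 3) 3 (by norm_num) (by norm_num)
  exact ((QuotientGroup.quotientMulEquivOfEq (by
    rw [← card_eq_one, Classical.sl_card_center, ZMod.card]; rfl)).trans QuotientGroup.quotientBot).symm.isSimpleGroup

theorem card_SL3 : Nat.card SL3 = 5616 := by rw [Classical.sl3_card, ZMod.card]; rfl

theorem lin_surj : Function.Surjective AS.lin := fun g => ⟨⟨0, g⟩, rfl⟩

end PCP

open PCP

theorem AS.parabolic : ∃ P : Subgroup (Matrix.ProjectiveSpecialLinearGroup (Fin 4) (ZMod 3)),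
    IsCoatom P ∧ Nat.card (Cfsg.pCore 3 P) = 27 ∧
      Nonempty (P ⧸ Cfsg.pCore 3 P ≃* Matrix.SpecialLinearGroup (Fin 3) (ZMod 3)) ∧ Nonempty (AS ≃* P) := by
  let e := MonoidHom.ofInjective psi_inj
  let f := AS.lin.comp e.symm.toMonoidHom
  have hf : Function.Surjective f := lin_surj.comp e.symm.surjective
  have c : Nat.card f.ker = 27 := by
    have := f.ker.card_mul_index
    rw [index_ker, MonoidHom.range_eq_top.2 hf, card_top, card_SL3, ← Nat.card_congr e.toEquiv,
      Nat.card_congr AS.equivProd, Nat.card_prod, card_SL3, Nat.card_fun, Nat.card_zmod, Nat.card_fin] at this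
    omega
  have k : Cfsg.pCore 3 psi.range = f.ker := le_antisymm (sSup_le fun N hN => by
    have := simple
    obtain h | h := (hN.1.map f hf).eq_bot_or_eq_top
    · exact (Subgroup.map_eq_bot_iff _).1 h
    · obtain ⟨n, hn⟩ := IsPGroup.iff_card.1 (hN.2.map f)
      rw [h, card_top, card_SL3] at hn
      exact absurd (Nat.Prime.dvd_of_dvd_pow Nat.prime_two (hn ▸ (by decide : 2 ∣ 5616))) (by decide))
    (le_sSup ⟨inferInstance, IsPGroup.of_card (n := 3) c⟩)
  refine ⟨psi.range, ?_, k ▸ c, ⟨(QuotientGroup.quotientMulEquivOfEq k).trans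
    (QuotientGroup.quotientKerEquivOfSurjective f hf)⟩, ⟨e⟩⟩
  have : Nontrivial (ℙ (ZMod 3) (Fin 4 → ZMod 3)) := ⟨_, Projectivization.mk _ (Pi.single 1 1) (by decide), fun h =>
    absurd ((Projectivization.mk_eq_mk_iff' _ _ _ e0_ne _).1 h) (by decide)⟩
  rw [range_psi]
  exact MulAction.IsPreprimitive.isCoatom_stabilizer_of_isPreprimitive _ _

theorem AS.not_solvable : ¬ Group.IsSolvable AS := fun h => by
  have := simple
  have := Group.isSolvable_of_surjective lin_surj
  have := (IsSimpleGroup.comm_iff_isSolvable (G := SL3)).2 this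
  exact absurd (this ⟨!![1, 1, 0; 0, 1, 0; 0, 0, 1], by decide +kernel⟩ ⟨!![1, 0, 0; 1, 1, 0; 0, 0, 1], by decide +kernel⟩)
    (by decide +kernel)

end CfsgLib.L43R
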